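import Mathlib
import Cfsg.Prelude.Def_Solvable

set_option autoImplicit false

namespace Cfsg.Agent.Lib.Helper23

open scoped Pointwise in
theorem isFrobeniusComplement_iff {G : Type*} [Group G] (H : Subgroup G) :
    Cfsg.IsFrobeniusComplement H ↔
      H ≠ ⊥ ∧ H ≠ ⊤ ∧ ∀ g : G, g ∉ H → ∀ a ∈ H, g * a * g⁻¹ ∈ H → a = 1 := by
  unfold Cfsg.IsFrobeniusComplement
  refine and_congr Iff.rfl (and_congr Iff.rfl (forall_congr' fun g => imp_congr Iff.rfl ?_))
  constructor
  · intro h a ha hga
    have h1 : g * a * g⁻¹ ∈ H ⊓ (MulAut.conj g • H) := by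
      refine Subgroup.mem_inf.2 ⟨hga, ?_⟩
      rw [Subgroup.mem_pointwise_smul_iff_inv_smul_mem]
      simpa [MulAut.smul_def, mul_assoc] using ha
    rw [h, Subgroup.mem_bot] at h1
    have : a = g⁻¹ * (g * a * g⁻¹) * g := by group
    rw [this, h1]; group
  · intro h
    rw [eq_bot_iff]
    intro y hy
    obtain ⟨hy1, hy2⟩ := Subgroup.mem_inf.1 hy
    rw [Subgroup.mem_pointwise_smul_iff_inv_smul_mem] at hy2
    have hy3 : g⁻¹ * y * g ∈ H := by simpa [MulAut.smul_def, mul_assoc] using hy2
    have h1 := h _ hy3 (by simpa [mul_assoc] using hy1)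
    rw [Subgroup.mem_bot]
    have : y = g * (g⁻¹ * y * g) * g⁻¹ := by group
    rw [this, h1]; group

theorem isFrobeniusComplement_map_equiv {G G' : Type*} [Group G] [Group G'] (e : G ≃* G')
    (H : Subgroup G) (hH : Cfsg.IsFrobeniusComplement H) :
    Cfsg.IsFrobeniusComplement (H.map e.toMonoidHom) := by
  rw [isFrobeniusComplement_iff] at hH ⊢
  obtain ⟨h1, h2, h3⟩ := hH
  refine ⟨?_, ?_, ?_⟩
  · intro h
    exact h1 ((Subgroup.map_eq_bot_iff_of_injective H e.injective).1 h)
  · intro h
    apply h2
    rw [eq_top_iff]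
    intro x _
    have : e x ∈ H.map e.toMonoidHom := by rw [h]; trivial
    obtain ⟨y, hy, hyx⟩ := this
    have : y = x := e.injective hyx
    rwa [← this]
  · intro g hg a ha hga
    obtain ⟨b, hb, rfl⟩ := ha
    obtain ⟨k, rfl⟩ := e.surjective g
    have hk : k ∉ H := fun h => hg ⟨k, h, rfl⟩
    obtain ⟨c, hc, hce⟩ := hga
    have hc' : c = k * b * k⁻¹ := by
      apply e.injective
      have : e c = e k * e b * (e k)⁻¹ := hce
      rw [this]; simp
    have := h3 k hk b hb (hc' ▸ hc)
    rw [this]; simp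

/-- Bring a finite Frobenius group down to universe `0`. -/
theorem exists_frobenius_type0 {G : Type*} [Group G] [Finite G] (H : Subgroup G)
    (hH : Cfsg.IsFrobeniusComplement H) :
    ∃ (L : Type) (_ : Group L) (_ : Finite L) (C : Subgroup L),
      Cfsg.IsFrobeniusComplement C ∧ Nonempty (H ≃* C) := by
  have hs : Small.{0} G := inferInstance
  let e' : G ≃* Shrink.{0} G := (Shrink.mulEquiv.{0} (α := G)).symm
  exact ⟨Shrink.{0} G, inferInstance, Finite.of_equiv _ (equivShrink.{0} G), H.map e'.toMonoidHom,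
    isFrobeniusComplement_map_equiv e' H hH, ⟨e'.subgroupMap H⟩⟩

theorem mem_range_inr_iff {N H : Type*} [Group N] [Group H] (φ : H →* MulAut N)
    (x : N ⋊[φ] H) : x ∈ (SemidirectProduct.inr : H →* N ⋊[φ] H).range ↔ x.left = 1 := by
  constructor
  · rintro ⟨h, rfl⟩
    simp
  · intro h
    exact ⟨x.right, by ext <;> simp [h]⟩

theorem isFrobeniusComplement_semidirect {N H : Type*} [Group N] [Group H] [Nontrivial N]
    [Nontrivial H] (φ : H →* MulAut N) (hfpf : ∀ h : H, h ≠ 1 → ∀ n : N, φ h n = n → n = 1) :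
    Cfsg.IsFrobeniusComplement (SemidirectProduct.inr : H →* N ⋊[φ] H).range := by
  rw [isFrobeniusComplement_iff]
  refine ⟨?_, ?_, ?_⟩
  · intro h
    obtain ⟨k, hk⟩ := exists_ne (1 : H)
    have : (SemidirectProduct.inr k : N ⋊[φ] H) ∈ (SemidirectProduct.inr : H →* N ⋊[φ] H).range :=
      ⟨k, rfl⟩
    rw [h, Subgroup.mem_bot] at this
    apply hk
    have h2 := congrArg SemidirectProduct.right this
    simpa using h2
  · intro h
    obtain ⟨n, hn⟩ := exists_ne (1 : N)
    have : (SemidirectProduct.inl n : N ⋊[φ] H) ∈ (SemidirectProduct.inr : H →* N ⋊[φ] H).range := by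
      rw [h]; trivial
    rw [mem_range_inr_iff] at this
    apply hn
    simpa using this
  · intro g hg a ha hga
    rw [mem_range_inr_iff] at hg ha hga
    have h1 : (g * a * g⁻¹).left = g.left * φ (g.right * a.right * g.right⁻¹) (g.left)⁻¹ := by
      simp [ha, mul_assoc]
    rw [h1] at hga
    have h2 : φ (g.right * a.right * g.right⁻¹) g.left = g.left := by
      have h3 : φ (g.right * a.right * g.right⁻¹) (g.left)⁻¹ = (g.left)⁻¹ :=
        (eq_inv_of_mul_eq_one_right hga)
      rw [map_inv] at h3
      exact inv_injective h3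
    have h4 : g.right * a.right * g.right⁻¹ = 1 := by
      by_contra hne
      exact hg (hfpf _ hne _ h2)
    have h5 : a.right = 1 := by
      have : a.right = g.right⁻¹ * (g.right * a.right * g.right⁻¹) * g.right := by group
      rw [this, h4]; group
    ext
    · simpa using ha
    · simpa using h5

theorem exists_frobenius_of_fpf {N H : Type*} [Group N] [Group H] [Finite N] [Finite H]
    [Nontrivial N] [Nontrivial H] (φ : H →* MulAut N)
    (hfpf : ∀ h : H, h ≠ 1 → ∀ n : N, φ h n = n → n = 1) :
    ∃ (L : Type) (_ : Group L) (_ : Finite L) (C : Subgroup L),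
      Cfsg.IsFrobeniusComplement C ∧ Nonempty (H ≃* C) := by
  have : Finite (N ⋊[φ] H) := Finite.of_equiv _ SemidirectProduct.equivProd.symm
  obtain ⟨L, i1, i2, C, hC, ⟨e⟩⟩ :=
    exists_frobenius_type0 _ (isFrobeniusComplement_semidirect φ hfpf)
  exact ⟨L, i1, i2, C, hC,
    ⟨(MonoidHom.ofInjective (SemidirectProduct.inr_injective (φ := φ))).trans e⟩⟩

/-- A group mapping to a ring `R`, acting without fixed points on a finite `R`-module. -/
theorem exists_frobenius_of_module {H R V : Type*} [Group H] [Finite H] [Nontrivial H] [Ring R]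
    [AddCommGroup V] [Module R V] [Finite V] [Nontrivial V] (ι : H →* R)
    (hfpf : ∀ h : H, h ≠ 1 → ∀ v : V, ι h • v = v → v = 0) :
    ∃ (L : Type) (_ : Group L) (_ : Finite L) (C : Subgroup L),
      Cfsg.IsFrobeniusComplement C ∧ Nonempty (H ≃* C) := by
  have hinv : ∀ (h k : H) (v : V), h * k = 1 → ι h • ι k • v = v := by
    intro h k v hk
    rw [smul_smul, ← map_mul, hk, map_one, one_smul]
  let φ : H →* MulAut (Multiplicative V) :=
    { toFun := fun h =>
        { toFun := fun n => Multiplicative.ofAdd (ι h • n.toAdd)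
          invFun := fun n => Multiplicative.ofAdd (ι h⁻¹ • n.toAdd)
          left_inv := fun n => by
            show Multiplicative.ofAdd (ι h⁻¹ • ι h • n.toAdd) = n
            rw [hinv _ _ _ (inv_mul_cancel h)]; rfl
          right_inv := fun n => by
            show Multiplicative.ofAdd (ι h • ι h⁻¹ • n.toAdd) = n
            rw [hinv _ _ _ (mul_inv_cancel h)]; rfl
          map_mul' := fun m n => by
            show Multiplicative.ofAdd (ι h • (m.toAdd + n.toAdd)) = _
            rw [smul_add]; rfl }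
      map_one' := by
        apply MulEquiv.ext
        intro n
        show Multiplicative.ofAdd (ι 1 • n.toAdd) = n
        rw [map_one, one_smul]; rfl
      map_mul' := fun h k => by
        apply MulEquiv.ext
        intro n
        show Multiplicative.ofAdd (ι (h * k) • n.toAdd) = Multiplicative.ofAdd (ι h • ι k • n.toAdd)
        rw [map_mul, smul_smul] }
  apply exists_frobenius_of_fpf φ
  intro h hh n hn
  have h1 : ι h • n.toAdd = n.toAdd := congrArg Multiplicative.toAdd hn
  have h2 := hfpf h hh _ h1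
  exact Multiplicative.toAdd.injective h2

end Cfsg.Agent.Lib.Helper23
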