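import Mathlib

set_option autoImplicit false

namespace Cfsg.Agent.Lib.Helper23

universe u

/-- An `𝔽_p`-space with anticommuting operators `i, j` of square `-1` has square order. -/
theorem quat_base_case {V : Type*} [AddCommGroup V] [Finite V] (p : ℕ) [hp : Fact p.Prime]
    (hodd : Odd (Nat.card V)) (hpV : ∀ v : V, p • v = 0) (i j : V →+ V)
    (hi : ∀ v, i (i v) = -v) (hj : ∀ v, j (j v) = -v) (hij : ∀ v, i (j v) = -(j (i v))) :
    IsSquare (Nat.card V) := by
  obtain ⟨a, b, -, -, hab⟩ := Nat.sq_add_sq_zmodEq p (-1)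
  obtain ⟨c, hc⟩ : ∃ c : ℤ, (a : ℤ) ^ 2 + (b : ℤ) ^ 2 = -1 + p * c := by
    obtain ⟨c, hc⟩ := hab.symm.dvd
    exact ⟨c, by linarith⟩
  have hji : ∀ v, j (i v) = -(i (j v)) := fun v => by rw [hij, neg_neg]
  let t : V →+ V := AddMonoidHom.mk' (fun v => (a : ℤ) • i v + (b : ℤ) • j v)
    (by intro x y; simp only [map_add, smul_add]; abel)
  have ht : ∀ v, t v = (a : ℤ) • i v + (b : ℤ) • j v := fun v => rfl
  have hpz : ∀ (c : ℤ) (v : V), ((p : ℤ) * c) • v = 0 := by
    intro c v
    rw [mul_comm, mul_smul, natCast_zsmul, hpV, smul_zero]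
  have htt : ∀ v, t (t v) = v := by
    intro v
    have h1 : t (t v) = -(((a : ℤ) ^ 2 + (b : ℤ) ^ 2) • v) := by
      simp only [ht, map_add, map_zsmul, hi, hj, hij]
      module
    rw [h1, hc, add_smul, hpz, add_zero, neg_smul, one_smul, neg_neg]
  have e1 : ∀ v, j (i (j v)) = i v := fun v => by rw [hji, hj, map_neg, neg_neg]
  have e2 : ∀ v, i (j (i v)) = j v := fun v => by rw [hij, hi, map_neg, neg_neg]
  have hk : ∀ v, t (i (j v)) = -(i (j (t v))) := by
    intro v
    rw [ht, ht, hi, e1, map_add, map_add, map_zsmul, map_zsmul, map_zsmul, map_zsmul, e2, hj,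
      map_neg]
    module
  have hkinj : ∀ v w, i (j v) = i (j w) → v = w := by
    intro v w h
    have h1 := congrArg (fun x => i (j x)) h
    simp only [e1, hi] at h1
    exact neg_injective h1
  let s : V →+ V := AddMonoidHom.mk' (fun v => t v + v)
    (by intro x y; simp only [map_add]; abel)
  have hs : ∀ v, s v = t v + v := fun v => rfl
  have hker : ∀ v, v ∈ s.ker ↔ t v = -v := by
    intro v; rw [AddMonoidHom.mem_ker, hs, add_eq_zero_iff_eq_neg]
  obtain ⟨m, hm⟩ := hodd
  have hcardV : ∀ v : V, (2 * m + 1) • v = 0 := fun v => by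
    rw [← hm]; exact card_nsmul_eq_zero'
  have hrange : ∀ v, v ∈ s.range ↔ t v = v := by
    intro v
    constructor
    · rintro ⟨w, rfl⟩
      rw [hs, map_add, htt, add_comm]
    · intro hv
      refine ⟨(m + 1) • v, ?_⟩
      rw [hs, map_nsmul, hv, ← add_nsmul]
      have h2 : m + 1 + (m + 1) = (2 * m + 1) + 1 := by ring
      rw [h2, add_nsmul, hcardV, zero_add, one_nsmul]
  have hcard : Nat.card s.ker * Nat.card s.range = Nat.card V := by
    rw [← AddSubgroup.index_ker, AddSubgroup.card_mul_index]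
  have hle1 : Nat.card s.range ≤ Nat.card s.ker := by
    apply Nat.card_le_card_of_injective (fun v : s.range =>
      (⟨i (j v), (hker _).2 (by rw [hk, (hrange _).1 v.2])⟩ : s.ker))
    intro v w hvw
    have h1 : i (j (v : V)) = i (j (w : V)) := congrArg Subtype.val hvw
    exact Subtype.ext (hkinj _ _ h1)
  have hle2 : Nat.card s.ker ≤ Nat.card s.range := by
    apply Nat.card_le_card_of_injective (fun v : s.ker =>
      (⟨i (j v), (hrange _).2 (by rw [hk, (hker _).1 v.2, map_neg, map_neg, neg_neg])⟩ : s.range))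
    intro v w hvw
    have h1 : i (j (v : V)) = i (j (w : V)) := congrArg Subtype.val hvw
    exact Subtype.ext (hkinj _ _ h1)
  exact ⟨Nat.card s.ker, by rw [← hcard, le_antisymm hle1 hle2]⟩

/-- A finite abelian group of odd order with anticommuting operators `i, j` of square `-1`
has square order. -/
theorem quat_isSquare_card : ∀ (n : ℕ) (V : Type u) [AddCommGroup V] [Finite V], Nat.card V = n →
    Odd n → ∀ (i j : V →+ V), (∀ v, i (i v) = -v) → (∀ v, j (j v) = -v) →
      (∀ v, i (j v) = -(j (i v))) → IsSquare n := by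
  intro n
  induction n using Nat.strong_induction_on with
  | _ n ih =>
  intro V _ _ hn hodd i j hi hj hij
  by_cases h1 : n = 1
  · exact ⟨1, by rw [h1]⟩
  obtain ⟨p, hp, hpn⟩ := Nat.exists_prime_and_dvd h1
  have : Fact p.Prime := ⟨hp⟩
  let f : V →+ V := AddMonoidHom.mk' (fun v => p • v) (fun x y => nsmul_add x y p)
  have hf : ∀ v, f v = p • v := fun v => rfl
  have hcard : Nat.card f.ker * Nat.card f.range = n := by
    rw [← hn, ← AddSubgroup.index_ker, AddSubgroup.card_mul_index]
  have key : ∀ W : AddSubgroup V, (∀ w ∈ W, i w ∈ W) → (∀ w ∈ W, j w ∈ W) → Nat.card W < n →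
      IsSquare (Nat.card W) := by
    intro W hWi hWj hlt
    have hoddW : Odd (Nat.card W) := by
      have hd : Nat.card W ∣ n := hn ▸ AddSubgroup.card_addSubgroup_dvd_card W
      exact Odd.of_dvd_nat hodd hd
    exact ih _ hlt W rfl hoddW ((i.comp W.subtype).codRestrict W (fun w => hWi w w.2))
      ((j.comp W.subtype).codRestrict W (fun w => hWj w w.2))
      (fun v => Subtype.ext (hi v)) (fun v => Subtype.ext (hj v)) (fun v => Subtype.ext (hij v))
  by_cases hker : f.ker = ⊤
  · rw [← hn]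
    apply quat_base_case p (hn ▸ hodd) _ i j hi hj hij
    intro v
    have hv : v ∈ f.ker := hker ▸ AddSubgroup.mem_top v
    exact hv
  · have hkpos : 1 < Nat.card f.ker := by
      obtain ⟨v, hv⟩ := exists_prime_addOrderOf_dvd_card' (G := V) p (hn ▸ hpn)
      have hvk : v ∈ f.ker := by
        show p • v = 0
        rw [← hv]; exact addOrderOf_nsmul_eq_zero v
      have hv0 : v ≠ 0 := by
        intro h0; rw [h0, addOrderOf_zero] at hv; exact hp.one_lt.ne hv
      have : Nontrivial f.ker := ⟨⟨⟨v, hvk⟩, 0, fun h => hv0 (congrArg Subtype.val h)⟩⟩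
      exact Finite.one_lt_card
    have hrpos : 1 < Nat.card f.range := by
      obtain ⟨v, hv⟩ : ∃ v, v ∉ f.ker := by
        by_contra hcon
        push Not at hcon
        exact hker (eq_top_iff.2 (fun v _ => hcon v))
      have : Nontrivial f.range :=
        ⟨⟨⟨f v, v, rfl⟩, 0, fun h => hv (congrArg Subtype.val h)⟩⟩
      exact Finite.one_lt_card
    have hklt : Nat.card f.ker < n := by rw [← hcard]; nlinarith
    have hrlt : Nat.card f.range < n := by rw [← hcard]; nlinarith
    have h2 := key f.ker (fun w hw => by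
        show p • i w = 0
        rw [← map_nsmul, show p • w = 0 from hw, map_zero])
      (fun w hw => by
        show p • j w = 0
        rw [← map_nsmul, show p • w = 0 from hw, map_zero]) hklt
    have h3 := key f.range (by
        rintro _ ⟨u, rfl⟩
        exact ⟨i u, by rw [hf, hf, map_nsmul]⟩)
      (by
        rintro _ ⟨u, rfl⟩
        exact ⟨j u, by rw [hf, hf, map_nsmul]⟩) hrlt
    rw [← hcard]
    exact h2.mul h3

theorem quat_isSquare_card_mul {N : Type u} [CommGroup N] [Finite N] (hodd : Odd (Nat.card N))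
    (i j : N →* N) (hi : ∀ v, i (i v) = v⁻¹) (hj : ∀ v, j (j v) = v⁻¹)
    (hij : ∀ v, i (j v) = (j (i v))⁻¹) : IsSquare (Nat.card N) :=
  quat_isSquare_card _ (Additive N) rfl hodd (MonoidHom.toAdditive i) (MonoidHom.toAdditive j)
    hi hj hij

/-- Group-level version: a normal subgroup on which a "quaternion" pair `I, J` acts with the
central involution acting without fixed points has odd square order. -/
theorem quat_odd_isSquare {L : Type u} [Group L] [Finite L] (N : Subgroup L) [hN : N.Normal]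
    (I J z : L) (hI : I * I = z) (hJ : J * J = z) (hIJ : I * J = z * (J * I)) (hz : z * z = 1)
    (hfix : ∀ n ∈ N, z * n = n * z → n = 1) :
    Odd (Nat.card N) ∧ IsSquare (Nat.card N) := by
  have hzinv : z⁻¹ = z := inv_eq_of_mul_eq_one_left hz
  -- `z` inverts `N`
  have hinv : ∀ n ∈ N, z * n * z⁻¹ = n⁻¹ := by
    let φ : N → N := fun n => ⟨(n : L)⁻¹ * (z * n * z⁻¹),
      N.mul_mem (N.inv_mem n.2) (hN.conj_mem n n.2 z)⟩
    have hφ : Function.Injective φ := by
      intro n m hnm
      have h1 : (n : L)⁻¹ * (z * n * z⁻¹) = (m : L)⁻¹ * (z * m * z⁻¹) := congrArg Subtype.val hnm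
      have h2 : z * ((m : L) * (n : L)⁻¹) = ((m : L) * (n : L)⁻¹) * z := by
        have h3 : (m : L) * (n : L)⁻¹ = z * m * z⁻¹ * (z * n * z⁻¹)⁻¹ := by
          rw [eq_mul_inv_iff_mul_eq, mul_assoc, h1, mul_inv_cancel_left]
        have h4 : z * m * z⁻¹ * (z * n * z⁻¹)⁻¹ = z * ((m : L) * (n : L)⁻¹) * z⁻¹ := by group
        rw [h4] at h3
        calc z * ((m : L) * (n : L)⁻¹) = z * ((m : L) * (n : L)⁻¹) * z⁻¹ * z := by group
          _ = ((m : L) * (n : L)⁻¹) * z := by rw [← h3]
      have h5 := hfix _ (N.mul_mem m.2 (N.inv_mem n.2)) h2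
      exact Subtype.ext (mul_inv_eq_one.1 h5).symm
    have hsurj : Function.Surjective φ := Finite.injective_iff_surjective.1 hφ
    intro x hx
    obtain ⟨n, hn⟩ := hsurj ⟨x, hx⟩
    have hx' : x = (n : L)⁻¹ * (z * n * z⁻¹) := (congrArg Subtype.val hn).symm
    rw [hx', hzinv]
    have e : z * ((n : L)⁻¹ * (z * n * z)) * z = z * (n : L)⁻¹ * z * n * (z * z) := by
      group
    rw [e, hz, mul_one]
    have e2 : ((n : L)⁻¹ * (z * n * z))⁻¹ = z⁻¹ * (n : L)⁻¹ * z⁻¹ * n := by group
    rw [e2, hzinv]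
  have hcomm : ∀ a b : N, a * b = b * a := by
    intro a b
    apply Subtype.ext
    have h1 := hinv _ (N.mul_mem a.2 b.2)
    have h2 : z * ((a : L) * b) * z⁻¹ = (z * a * z⁻¹) * (z * b * z⁻¹) := by group
    rw [h2, hinv a a.2, hinv b b.2, mul_inv_rev] at h1
    have h3 := congrArg (fun t => t⁻¹) h1
    simp only [mul_inv_rev, inv_inv] at h3
    exact h3.symm
  have hodd : Odd (Nat.card N) := by
    rw [← Nat.not_even_iff_odd]
    intro heven
    have : Fact (Nat.Prime 2) := ⟨Nat.prime_two⟩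
    obtain ⟨n, hn⟩ := exists_prime_orderOf_dvd_card' (G := N) 2 heven.two_dvd
    have hn2 : n * n = 1 := by rw [← pow_two, ← hn, pow_orderOf_eq_one]
    have hn3 : (n : L)⁻¹ = n := inv_eq_of_mul_eq_one_left (congrArg Subtype.val hn2)
    have h1 := hinv n n.2
    rw [hn3] at h1
    have h2 : z * (n : L) = n * z := by
      calc z * (n : L) = z * n * z⁻¹ * z := by group
        _ = n * z := by rw [h1]
    have h3 := hfix n n.2 h2
    have h4 : n = 1 := Subtype.ext h3
    rw [h4, orderOf_one] at hn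
    omega
  refine ⟨hodd, ?_⟩
  let _ : CommGroup N := { (inferInstance : Group N) with mul_comm := hcomm }
  refine quat_isSquare_card_mul hodd (MulAut.conjNormal I).toMonoidHom
    (MulAut.conjNormal J).toMonoidHom ?_ ?_ ?_
  · intro v
    apply Subtype.ext
    show I * (I * v * I⁻¹) * I⁻¹ = (v : L)⁻¹
    rw [← hinv v v.2, ← hI]
    group
  · intro v
    apply Subtype.ext
    show J * (J * v * J⁻¹) * J⁻¹ = (v : L)⁻¹
    rw [← hinv v v.2, ← hJ]
    group
  · intro v
    apply Subtype.ext
    show I * (J * v * J⁻¹) * I⁻¹ = (J * (I * v * I⁻¹) * J⁻¹)⁻¹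
    rw [← hinv _ (hN.conj_mem _ (hN.conj_mem v v.2 I) J)]
    have e : I * (J * v * J⁻¹) * I⁻¹ = (I * J) * v * (I * J)⁻¹ := by group
    rw [e, hIJ]
    group

end Cfsg.Agent.Lib.Helper23
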