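import Mathlib
import Cfsg.Agent.Lib.Helper23.HSub
import Cfsg.Agent.Lib.Helper4.Supersolvable3

set_option autoImplicit false

namespace Cfsg.Agent.Lib.Helper23.HSub2

open Cfsg.Agent.Lib.Helper13 Cfsg.Agent.Lib.Helper4 Cfsg.Agent.Lib.Helper23.HSub

universe u v

/-- the smallest normal subgroup with abelian quotient of exponent dividing `m` -/
def TT (m : ℕ) (Γ : Type u) [Group Γ] : Subgroup Γ :=
  (powMonoidHom m : Abelianization Γ →* Abelianization Γ).range.comap Abelianization.of

instance TT_normal (m : ℕ) (Γ : Type u) [Group Γ] : (TT m Γ).Normal := by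
  unfold TT; infer_instance

theorem pow_mem_TT (m : ℕ) {Γ : Type u} [Group Γ] (a : Γ) : a ^ m ∈ TT m Γ := by
  refine ⟨Abelianization.of a, ?_⟩
  simp [powMonoidHom]

theorem comm_mem_TT (m : ℕ) {Γ : Type u} [Group Γ] (a b : Γ) : a * b * a⁻¹ * b⁻¹ ∈ TT m Γ := by
  refine ⟨1, ?_⟩
  simp only [map_one, map_mul, map_inv]
  rw [mul_comm (Abelianization.of a) (Abelianization.of b)]
  simp

theorem TT_map (m : ℕ) {Γ : Type u} [Group Γ] {W : Type v} [CommGroup W] (ψ : Γ →* W) {t : Γ}
    (ht : t ∈ TT m Γ) : ∃ w : W, ψ t = w ^ m := by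
  obtain ⟨u, hu⟩ := ht
  refine ⟨Abelianization.lift ψ u, ?_⟩
  rw [← Abelianization.lift_apply_of ψ t, ← hu]
  simp [powMonoidHom]

theorem TT_centralizes_cyclic {Γ : Type u} {Γ' : Type v} [Group Γ] [Group Γ'] [Finite Γ] [Finite Γ']
    {p : ℕ} [Fact p.Prime] (π : Γ →* Γ') (E : Subgroup Γ') [E.Normal] (hE : IsCyclic E)
    (hEp : IsPGroup p E) (y : Γ) (hy : y ∈ TT (p - 1) Γ) (hyp : (orderOf y).Coprime p) :
    ∀ e ∈ E, π y * e * (π y)⁻¹ = e := by
  have hp : p.Prime := Fact.out
  obtain ⟨k, hk⟩ := hEp.exists_card_eq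
  let e₀ := hE.mulAutMulEquiv E
  let ψ : Γ →* (ZMod (Nat.card E))ˣ := e₀.toMonoidHom.comp ((MulAut.conjNormal (H := E)).comp π)
  obtain ⟨w, hw⟩ := TT_map (p - 1) ψ hy
  have h1 : (ψ y) ^ (p ^ (k - 1)) = 1 := by
    rcases Nat.eq_zero_or_pos k with rfl | hkpos
    · have : Subsingleton (ZMod (Nat.card E))ˣ := by
        rw [hk, pow_zero]; infer_instance
      exact Subsingleton.elim _ _
    · rw [hw, ← pow_mul, mul_comm, ← Nat.totient_prime_pow hp hkpos, ← hk]
      exact ZMod.pow_totient w
  have h2 : orderOf (ψ y) ∣ orderOf y := orderOf_map_dvd ψ y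
  have h3 : orderOf (ψ y) = 1 :=
    Nat.eq_one_of_dvd_coprimes (Nat.Coprime.pow_right (k - 1) hyp) h2 (orderOf_dvd_of_pow_eq_one h1)
  have h4 : ψ y = 1 := orderOf_eq_one_iff.mp h3
  have h5 : (MulAut.conjNormal (π y) : MulAut E) = 1 := by
    apply e₀.injective
    rw [map_one]
    exact h4
  intro e he
  have h6 : ((MulAut.conjNormal (π y) : MulAut E) ⟨e, he⟩ : Γ') = e := by rw [h5]; rfl
  rwa [MulAut.conjNormal_apply] at h6

open Polynomial in
theorem exists_eigenvector' {p : ℕ} [Fact p.Prime] {M : Type*} [AddCommGroup M] [Module (ZMod p) M]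
    [Finite M] [Nontrivial M] (f : Module.End (ZMod p) M) (hf : f ^ p = f) :
    ∃ μ : ZMod p, ∃ v : M, v ≠ 0 ∧ f v = μ • v := by
  have hp : p.Prime := Fact.out
  have h1 : minpoly (ZMod p) f ∣ (X ^ p - X : (ZMod p)[X]) := by
    apply minpoly.dvd
    simp [hf]
  have hne : (X ^ p - X : (ZMod p)[X]) ≠ 0 := FiniteField.X_pow_card_sub_X_ne_zero _ hp.one_lt
  have hsplit : (X ^ p - X : (ZMod p)[X]).Splits := by
    have := FiniteField.roots_X_pow_card_sub_X (ZMod p)
    rw [ZMod.card] at this
    rw [splits_iff_card_roots, this, ← Finset.card_def, Finset.card_univ,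
      FiniteField.X_pow_card_sub_X_natDegree_eq _ hp.one_lt, ZMod.card]
  have h2 := hsplit.of_dvd hne h1
  have hfd : FiniteDimensional (ZMod p) M := inferInstance
  have hint : IsIntegral (ZMod p) f := Algebra.IsIntegral.isIntegral f
  have hdeg : (minpoly (ZMod p) f).degree ≠ 0 := (minpoly.degree_pos hint).ne'
  obtain ⟨μ, hμ⟩ := h2.exists_eval_eq_zero hdeg
  have h3 := Module.End.hasEigenvalue_of_isRoot (f := f) (μ := μ) hμ
  obtain ⟨v, hv⟩ := h3.exists_hasEigenvector
  exact ⟨μ, v, hv.2, hv.apply_eq_smul⟩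

theorem exists_eigen_add {p : ℕ} [Fact p.Prime] {A : Type*} [AddCommGroup A] [Finite A]
    [Nontrivial A] (hexp : ∀ a : A, p • a = 0) (φ : A →+ A) (hφ : ∀ a, φ^[p] a = φ a) :
    ∃ k : ℕ, ∃ a : A, a ≠ 0 ∧ φ a = k • a := by
  have _inst : Module (ZMod p) A := AddCommGroup.zmodModule hexp
  let f : Module.End (ZMod p) A := φ.toZModLinearMap p
  have hfapp : ∀ x : A, f x = φ x := fun x => rfl
  have hit : ∀ n : ℕ, ∀ x : A, (f ^ n) x = φ^[n] x := by
    intro n
    induction n with
    | zero => intro x; rfl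
    | succ n ih =>
      intro x
      rw [pow_succ, Module.End.mul_apply, ih, hfapp, Function.iterate_succ_apply]
  have hf : f ^ p = f := by
    ext x
    rw [hit, hfapp, hφ]
  obtain ⟨μ, v, hv, hfv⟩ := exists_eigenvector' f hf
  refine ⟨μ.val, v, hv, ?_⟩
  have h1 : μ • v = μ.val • v := by
    rw [← Nat.cast_smul_eq_nsmul (ZMod p), ZMod.natCast_zmod_val]
  rw [h1, hfapp] at hfv
  exact hfv

/-- abstract multiplicative version -/
theorem exists_eigen_commGroup {p : ℕ} [Fact p.Prime] {V : Type*} [CommGroup V] [Finite V]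
    [Nontrivial V] (hexp : ∀ v : V, v ^ p = 1) (φ : V →* V) (hφ : ∀ v, φ^[p] v = φ v) :
    ∃ k : ℕ, ∃ v : V, v ≠ 1 ∧ φ v = v ^ k := by
  have hit : ∀ n : ℕ, ∀ x : Additive V, (MonoidHom.toAdditive φ)^[n] x = Additive.ofMul (φ^[n] x.toMul) := by
    intro n
    induction n with
    | zero => intro x; rfl
    | succ n ih =>
      intro x
      rw [Function.iterate_succ_apply, ih, Function.iterate_succ_apply]
      rfl
  obtain ⟨k, a, ha, hk⟩ := exists_eigen_add (p := p) (A := Additive V)
    (fun x => congrArg Additive.ofMul (hexp x.toMul)) (MonoidHom.toAdditive φ) (by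
      intro a
      rw [hit, hφ]
      rfl)
  refine ⟨k, a.toMul, ?_, ?_⟩
  · intro h
    exact ha (congrArg Additive.ofMul h)
  · exact congrArg Additive.toMul hk

theorem exists_eigen_group {p : ℕ} [Fact p.Prime] {V : Type*} [Group V] [Finite V]
    [Nontrivial V] (hab : ∀ a b : V, a * b = b * a) (hexp : ∀ v : V, v ^ p = 1) (φ : V →* V)
    (hφ : ∀ v, φ^[p] v = φ v) : ∃ k : ℕ, ∃ v : V, v ≠ 1 ∧ φ v = v ^ k := by
  let _i : CommGroup V := { (inferInstance : Group V) with mul_comm := hab }
  exact exists_eigen_commGroup hexp φ hφ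

/-- eigenvector for conjugation on a normal elementary abelian subgroup -/
theorem exists_eigen_conj {Γ : Type u} [Group Γ] [Finite Γ] {p : ℕ} [Fact p.Prime] (V : Subgroup Γ)
    (hVn : V.Normal) (hne : V ≠ ⊥) (hexp : ∀ v ∈ V, v ^ p = 1)
    (hab : ∀ v ∈ V, ∀ w ∈ V, v * w = w * v) (γ : Γ)
    (hγ : ∀ v ∈ V, γ ^ (p - 1) * v * (γ ^ (p - 1))⁻¹ = v) :
    ∃ k : ℕ, ∃ v ∈ V, v ≠ 1 ∧ γ * v * γ⁻¹ = v ^ k := by
  have hp : p.Prime := Fact.out
  have : Nontrivial V := (Subgroup.nontrivial_iff_ne_bot V).mpr hne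
  let φ : V →* V := (MulAut.conjNormal γ : MulAut V).toMonoidHom
  have hφ : ∀ v : V, ((φ v : V) : Γ) = γ * v * γ⁻¹ := fun v => rfl
  have hit : ∀ n : ℕ, ∀ v : V, ((φ^[n] v : V) : Γ) = γ ^ n * v * (γ ^ n)⁻¹ := by
    intro n
    induction n with
    | zero => intro v; simp
    | succ n ih =>
      intro v
      rw [Function.iterate_succ_apply', hφ, ih, pow_succ', mul_inv_rev]
      simp only [mul_assoc]
  obtain ⟨k, v, hv, hk⟩ := exists_eigen_group (p := p) (V := V)
    (fun a b => Subtype.ext (hab a a.2 b b.2))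
    (fun v => Subtype.ext (by rw [Subgroup.coe_pow]; exact hexp v v.2)) φ (by
      intro v
      apply Subtype.ext
      have e : p = (p - 1) + 1 := by have := hp.two_le; omega
      rw [hit, hφ]
      conv_lhs => rw [e, pow_succ', mul_inv_rev]
      have := hγ v v.2
      calc γ * γ ^ (p - 1) * ↑v * ((γ ^ (p - 1))⁻¹ * γ⁻¹)
          = γ * (γ ^ (p - 1) * ↑v * (γ ^ (p - 1))⁻¹) * γ⁻¹ := by simp only [mul_assoc]
        _ = γ * v * γ⁻¹ := by rw [this])
  refine ⟨k, v, v.2, ?_, ?_⟩
  · intro h
    exact hv (Subtype.ext h)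
  · have := congrArg Subtype.val hk
    rwa [hφ, Subgroup.coe_pow] at this

theorem exists_normal_card_p {Γ : Type u} [Group Γ] [Finite Γ] {p : ℕ} [Fact p.Prime]
    (T : Subgroup Γ) (hcomm : ∀ a b : Γ, a * b * a⁻¹ * b⁻¹ ∈ T) (hpow : ∀ a : Γ, a ^ (p - 1) ∈ T) :
    ∀ n : ℕ, ∀ V : Subgroup Γ, Nat.card V = n → V.Normal → V ≠ ⊥ → (∀ v ∈ V, v ^ p = 1) →
      (∀ v ∈ V, ∀ w ∈ V, v * w = w * v) → (∀ t ∈ T, ∀ v ∈ V, t * v * t⁻¹ = v) →
      ∃ Z : Subgroup Γ, Z ≤ V ∧ Z.Normal ∧ Nat.card Z = p := by
  have hp : p.Prime := Fact.out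
  intro n
  induction n using Nat.strong_induction_on with
  | _ n ih =>
    intro V hVn hVnorm hne hexp hab hT
    by_cases hsc : ∀ γ : Γ, ∃ k : ℕ, ∀ v ∈ V, γ * v * γ⁻¹ = v ^ k
    · obtain ⟨v, hvV, hv1⟩ := (Subgroup.ne_bot_iff_exists_ne_one).mp hne |>.elim
        (fun a ha => (⟨a.1, a.2, fun h => ha (Subtype.ext h)⟩ : ∃ v : Γ, v ∈ V ∧ v ≠ 1))
      refine ⟨Subgroup.zpowers v, (Subgroup.zpowers_le).mpr hvV, ?_, ?_⟩
      · constructor
        intro x hx γ
        obtain ⟨i, rfl⟩ := Subgroup.mem_zpowers_iff.mp hx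
        obtain ⟨k, hk⟩ := hsc γ
        have : γ * v ^ i * γ⁻¹ = (γ * v * γ⁻¹) ^ i := by rw [conj_zpow]
        rw [this, hk v hvV]
        exact Subgroup.zpow_mem _ (Subgroup.pow_mem _ (Subgroup.mem_zpowers v) k) i
      · rw [Nat.card_zpowers]; exact orderOf_eq_prime (hexp v hvV) hv1
    · rw [not_forall] at hsc
      obtain ⟨γ, hγ⟩ := hsc
      obtain ⟨k, v, hvV, hv1, hvk⟩ := exists_eigen_conj V hVnorm hne hexp hab γ
        (fun v hv => hT _ (hpow γ) v hv)
      let W : Subgroup Γ :=
        { carrier := {w | w ∈ V ∧ γ * w * γ⁻¹ = w ^ k}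
          one_mem' := ⟨V.one_mem, by simp⟩
          mul_mem' := by
            rintro a b ⟨ha, ha'⟩ ⟨hb, hb'⟩
            refine ⟨V.mul_mem ha hb, ?_⟩
            have hc : Commute a b := hab a ha b hb
            rw [hc.mul_pow, ← ha', ← hb']
            group
          inv_mem' := by
            rintro a ⟨ha, ha'⟩
            refine ⟨V.inv_mem ha, ?_⟩
            rw [inv_pow, ← ha']
            group }
      have hWV : W ≤ V := fun w hw => hw.1
      have hWn : W.Normal := by
        constructor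
        rintro w ⟨hw, hw'⟩ δ
        have h1 : δ * w * δ⁻¹ ∈ V := hVnorm.conj_mem w hw δ
        refine ⟨h1, ?_⟩
        have h2 := hT _ (hcomm γ δ) (δ * w ^ k * δ⁻¹) (hVnorm.conj_mem _ (V.pow_mem hw k) δ)
        rw [conj_pow, ← h2, ← hw']
        group
      have hWne : W ≠ ⊥ := by
        intro h
        have : v ∈ W := ⟨hvV, hvk⟩
        rw [h, Subgroup.mem_bot] at this
        exact hv1 this
      have hWlt : W < V := by
        refine lt_of_le_of_ne hWV ?_
        intro h
        apply hγ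
        refine ⟨k, fun w hw => ?_⟩
        have : w ∈ W := h ▸ hw
        exact this.2
      obtain ⟨Z, hZ, hZn, hZc⟩ := ih (Nat.card W) (hVn ▸ card_lt_card_of_lt hWlt) W rfl hWn hWne
        (fun w hw => hexp w (hWV hw)) (fun a ha b hb => hab a (hWV ha) b (hWV hb))
        (fun t ht w hw => hT t ht w (hWV hw))
      exact ⟨Z, hZ.trans hWV, hZn, hZc⟩

theorem coprime_pred_self {p : ℕ} (hp : p.Prime) : (p - 1).Coprime p := by
  have h1 : ¬ p ∣ p - 1 := Nat.not_dvd_of_pos_of_lt (by have := hp.two_le; omega)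
    (by have := hp.two_le; omega)
  exact ((Nat.Prime.coprime_iff_not_dvd hp).mpr h1).symm

theorem exists_normal_card_p_of_T {Γ : Type u} [Group Γ] [Finite Γ] {p : ℕ} [Fact p.Prime]
    (R T : Subgroup Γ) (hRn : R.Normal) (hTn : T.Normal) (hR : IsPGroup p R) (hne : R ≠ ⊥)
    (hcomm : ∀ a b : Γ, a * b * a⁻¹ * b⁻¹ ∈ T) (hpow : ∀ a : Γ, a ^ (p - 1) ∈ T)
    (hcen : ∀ t ∈ T, ∃ k : ℕ, t ^ (p ^ k) ∈ Subgroup.centralizer (R : Set Γ)) :
    ∃ Z : Subgroup Γ, Z ≤ R ∧ Z.Normal ∧ Nat.card Z = p := by
  have hp : p.Prime := Fact.out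
  have hRT : R ≤ T := by
    intro r hr
    obtain ⟨k, hk⟩ := (isPGroup_iff_pow_pow_eq_one.mp hR) ⟨r, hr⟩
    have hk' : r ^ (p ^ k) = 1 := by
      have := congrArg Subtype.val hk
      rwa [Subgroup.coe_pow] at this
    have hco : (p - 1).Coprime (orderOf r) :=
      Nat.Coprime.coprime_dvd_right (orderOf_dvd_of_pow_eq_one hk')
        (Nat.Coprime.pow_right k (coprime_pred_self hp))
    obtain ⟨m, hm⟩ := exists_pow_eq_self_of_coprime hco
    rw [← hm]
    exact T.pow_mem (hpow r) m
  let φ : Γ →* MulAut R := MulAut.conjNormal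
  let A : Subgroup (MulAut R) := T.map φ
  have hA : IsPGroup p A := by
    rintro ⟨_, t, ht, rfl⟩
    obtain ⟨k, hk⟩ := hcen t ht
    refine ⟨k, Subtype.ext ?_⟩
    rw [Subgroup.coe_pow, Subgroup.coe_one, ← map_pow]
    ext r
    rw [MulAut.conjNormal_apply, MulAut.one_apply]
    have := (Subgroup.mem_centralizer_iff.mp hk) r r.2
    rw [← this]; group
  have hdvd : p ∣ Nat.card R := by
    obtain ⟨n, hn⟩ := hR.exists_card_eq
    rcases Nat.eq_zero_or_pos n with rfl | hpos
    · rw [pow_zero] at hn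
      exact absurd ((Subgroup.card_eq_one).mp hn) hne
    · rw [hn]; exact dvd_pow_self p hpos.ne'
  have hfix1 : (1 : R) ∈ MulAction.fixedPoints A R := by
    intro a
    exact map_one (a : MulAut R)
  obtain ⟨b, hb, hb1⟩ := hA.exists_fixed_point_of_prime_dvd_card_of_fixed_point R hdvd hfix1
  have hbT : ∀ t ∈ T, t * (b : Γ) * t⁻¹ = b := by
    intro t ht
    have := hb ⟨φ t, t, ht, rfl⟩
    exact congrArg Subtype.val this
  have hb1' : (b : Γ) ≠ 1 := fun h => hb1 (Subtype.ext h.symm)
  obtain ⟨k, hk⟩ := (isPGroup_iff_pow_pow_eq_one.mp hR) b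
  have hk' : (b : Γ) ^ (p ^ k) = 1 := by
    have := congrArg Subtype.val hk
    rwa [Subgroup.coe_pow] at this
  obtain ⟨i, -, hi⟩ := (Nat.dvd_prime_pow hp).1 (orderOf_dvd_of_pow_eq_one hk')
  have hi0 : i ≠ 0 := by
    rintro rfl
    rw [pow_zero, orderOf_eq_one_iff] at hi
    exact hb1' hi
  let V : Subgroup Γ :=
    { carrier := {v | v ∈ R ∧ (∀ t ∈ T, t * v * t⁻¹ = v) ∧ v ^ p = 1}
      one_mem' := ⟨R.one_mem, by simp, by simp⟩
      mul_mem' := by
        rintro a c ⟨ha, ha', ha''⟩ ⟨hc, hc', hc''⟩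
        refine ⟨R.mul_mem ha hc, ?_, ?_⟩
        · intro t ht
          calc t * (a * c) * t⁻¹ = (t * a * t⁻¹) * (t * c * t⁻¹) := by group
            _ = a * c := by rw [ha' t ht, hc' t ht]
        · have hcm : Commute a c := by
            have := hc' a (hRT ha)
            calc a * c = (a * c * a⁻¹) * a := by group
              _ = c * a := by rw [this]
          rw [hcm.mul_pow, ha'', hc'', one_mul]
      inv_mem' := by
        rintro a ⟨ha, ha', ha''⟩
        refine ⟨R.inv_mem ha, ?_, by rw [inv_pow, ha'', inv_one]⟩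
        intro t ht
        calc t * a⁻¹ * t⁻¹ = (t * a * t⁻¹)⁻¹ := by group
          _ = a⁻¹ := by rw [ha' t ht] }
  have hVR : V ≤ R := fun v hv => hv.1
  have hVn : V.Normal := by
    constructor
    rintro v ⟨hv, hv', hv''⟩ γ
    refine ⟨hRn.conj_mem v hv γ, ?_, by rw [conj_pow, hv'']; group⟩
    intro t ht
    have h1 : γ⁻¹ * t * γ⁻¹⁻¹ ∈ T := hTn.conj_mem t ht γ⁻¹
    have h2 := hv' _ h1
    calc t * (γ * v * γ⁻¹) * t⁻¹ = γ * ((γ⁻¹ * t * γ⁻¹⁻¹) * v * (γ⁻¹ * t * γ⁻¹⁻¹)⁻¹) * γ⁻¹ := by group
      _ = γ * v * γ⁻¹ := by rw [h2]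
  have hVne : V ≠ ⊥ := by
    intro h
    have hmem : (b : Γ) ^ (p ^ (i - 1)) ∈ V := by
      refine ⟨R.pow_mem b.2 _, ?_, ?_⟩
      · intro t ht
        rw [← conj_pow, hbT t ht]
      · rw [← pow_mul, ← pow_succ, Nat.sub_add_cancel (Nat.pos_of_ne_zero hi0), ← hi]
        exact pow_orderOf_eq_one _
    rw [h, Subgroup.mem_bot] at hmem
    have h2 := orderOf_dvd_of_pow_eq_one hmem
    rw [hi] at h2
    have h3 := (Nat.pow_dvd_pow_iff_le_right hp.one_lt).mp h2
    omega
  obtain ⟨Z, hZ, hZn, hZc⟩ := exists_normal_card_p T hcomm hpow _ V rfl hVn hVne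
    (fun v hv => hv.2.2)
    (fun v hv w hw => by
      have := hw.2.1 v (hRT hv.1)
      calc v * w = (v * w * v⁻¹) * v := by group
        _ = w * v := by rw [this])
    (fun t ht v hv => hv.2.1 t ht)
  exact ⟨Z, hZ.trans hVR, hZn, hZc⟩

theorem chain_of_cyclic {Γ : Type u} [Group Γ] (A : Subgroup Γ) (hA : A.Normal) (hc : IsCyclic A) :
    CycChain ⊥ A := by
  obtain ⟨g, hg⟩ := (Subgroup.isCyclic_iff_exists_zpowers_eq_top A).mp hc
  exact CycChain.step ⊥ A A g inferInstance (by rw [bot_sup_eq, hg]) (CycChain.refl A hA)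

theorem chain_of_T {p : ℕ} [Fact p.Prime] : ∀ n : ℕ, ∀ (Γ : Type u) [Group Γ] [Finite Γ]
    (R T : Subgroup Γ), Nat.card R = n → R.Normal → T.Normal → IsPGroup p R →
    (∀ a b : Γ, a * b * a⁻¹ * b⁻¹ ∈ T) → (∀ a : Γ, a ^ (p - 1) ∈ T) →
    (∀ t ∈ T, ∃ k : ℕ, t ^ (p ^ k) ∈ Subgroup.centralizer (R : Set Γ)) → CycChain ⊥ R := by
  have hp : p.Prime := Fact.out
  intro n
  induction n using Nat.strong_induction_on with
  | _ n ih =>
    intro Γ _ _ R T hRc hRn hTn hR hcomm hpow hcen
    by_cases hne : R = ⊥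
    · rw [hne]; exact CycChain.refl _ inferInstance
    obtain ⟨Z, hZR, hZn, hZc⟩ := exists_normal_card_p_of_T R T hRn hTn hR hne hcomm hpow hcen
    let π := QuotientGroup.mk' Z
    have hsurj : Function.Surjective π := QuotientGroup.mk'_surjective Z
    have hcard : Nat.card (R.map π) < n := by
      have h1 : Nat.card (R.map π) = Z.relIndex R := by
        rw [← Subgroup.relIndex_bot_left, ← Subgroup.relIndex_comap, MonoidHom.comap_bot,
          QuotientGroup.ker_mk']
      have h2 := Subgroup.relIndex_mul_relIndex ⊥ Z R bot_le hZR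
      rw [Subgroup.relIndex_bot_left, Subgroup.relIndex_bot_left, hZc, hRc] at h2
      rw [h1, ← h2]
      have hpos : 0 < Z.relIndex R := by
        rcases Nat.eq_zero_or_pos (Z.relIndex R) with h0 | h0
        · rw [h0, mul_zero] at h2
          have := Nat.card_pos (α := R)
          omega
        · exact h0
      have := hp.two_le
      nlinarith
    have hch := ih _ hcard (Γ ⧸ Z) (R.map π) (T.map π) rfl (hRn.map π hsurj) (hTn.map π hsurj)
      (hR.map π)
      (by
        intro a b
        obtain ⟨a, rfl⟩ := hsurj a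
        obtain ⟨b, rfl⟩ := hsurj b
        exact ⟨a * b * a⁻¹ * b⁻¹, hcomm a b, by simp⟩)
      (by
        intro a
        obtain ⟨a, rfl⟩ := hsurj a
        exact ⟨a ^ (p - 1), hpow a, by simp⟩)
      (by
        rintro _ ⟨t, ht, rfl⟩
        obtain ⟨k, hk⟩ := hcen t ht
        refine ⟨k, ?_⟩
        rw [Subgroup.mem_centralizer_iff]
        rintro _ ⟨r, hr, rfl⟩
        have := (Subgroup.mem_centralizer_iff.mp hk) r hr
        rw [← map_pow, ← map_mul, ← map_mul, this])
    have hch2 := hch.comap π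
    rw [MonoidHom.comap_bot, QuotientGroup.ker_mk', Subgroup.comap_map_eq, QuotientGroup.ker_mk',
      sup_eq_left.mpr hZR] at hch2
    exact (chain_of_cyclic Z hZn (isCyclic_of_prime_card hZc)).trans hch2

/-- Lemma A': a `p'`-element of `T` centralizes a normal `p`-subgroup all of whose subgroups of order
`p ^ d` are normal. -/
theorem centralizes_of_fam' {G : Type u} [Group G] [Finite G] {p : ℕ} [Fact p.Prime] (d : ℕ)
    (hd : 1 ≤ d) (T : Subgroup G)
    (hc : ∀ y ∈ T, (orderOf y).Coprime p → ∀ E : Subgroup G, E.Normal → IsCyclic E → IsPGroup p E →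
      ∀ x ∈ E, y * x * y⁻¹ = x)
    (hs : ∀ y ∈ T, (orderOf y).Coprime p → ∀ A B : Subgroup G, A.Normal → B.Normal → A ≤ B →
      A.relIndex B = p → ∀ b ∈ B, y * b * y⁻¹ * b⁻¹ ∈ A)
    (y : G) (hyT : y ∈ T) (hyp : (orderOf y).Coprime p) :
    ∀ n : ℕ, ∀ U : Subgroup G, Nat.card U = n → IsPGroup p U → U.Normal → p ^ d < Nat.card U →
      (∀ E : Subgroup G, E ≤ U → (Nat.card E = p ^ d ∨ (p ^ d = 2 ∧ Nat.card E = 4)) → E.Normal) →
      ∀ x ∈ U, y * x * y⁻¹ = x := by
  have hp : p.Prime := Fact.out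
  intro n
  induction n using Nat.strong_induction_on with
  | _ n ih =>
    intro U hUn hU hUnorm hdU hfam
    have hyU : y ∈ Subgroup.normalizer (U : Set G) :=
      mem_normalizer_of_conj_mem (fun e he => hUnorm.conj_mem e he y)
    have key : ∀ x ∈ U, x ^ (if p = 2 then 4 else p) = 1 → y * x * y⁻¹ = x := by
      intro x hxU hxe
      have hcen_of_cyc : ∀ E : Subgroup G, IsCyclic E → E ≤ U → E.Normal → x ∈ E →
          y * x * y⁻¹ = x := by
        intro E hE hEU hEn hxE
        exact hc y hyT hyp E hEn hE (hU.to_le hEU) x hxE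
      by_cases hsmall : orderOf x ≤ p ^ d
      · obtain ⟨E, hxE, hEU, hEc⟩ := exists_between hU ((Subgroup.zpowers_le).mpr hxU) (m := d)
          (by rw [Nat.card_zpowers]; exact hsmall) hdU.le
        have hxE' : x ∈ E := hxE (Subgroup.mem_zpowers x)
        have hyE := hfam E hEU (Or.inl hEc)
        obtain ⟨n', hn'⟩ := hU.exists_card_eq
        have hdn : d + 1 ≤ n' := by
          rw [hn'] at hdU
          exact (Nat.pow_lt_pow_iff_right hp.one_lt).mp hdU
        obtain ⟨F, hEF, hFU, hFc⟩ := exists_between hU hEU (m := d + 1)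
          (by rw [hEc]; exact Nat.pow_le_pow_right hp.pos (Nat.le_succ d))
          (by rw [hn']; exact Nat.pow_le_pow_right hp.pos hdn)
        by_cases hFtop : Nat.card U = p ^ (d + 1)
        · -- Frattini argument
          have hcent := Cfsg.Agent.Lib.Helper1.coprime_frattini_trivial (Subgroup.zpowers y) U
            ((Subgroup.zpowers_le).mpr hyU) ?_ ?_
          · have h2 := (Subgroup.mem_centralizer_iff.mp (hcent (Subgroup.mem_zpowers y))) x hxU
            rw [← h2]; group
          · rw [Nat.card_zpowers]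
            obtain ⟨j, hj⟩ := (hU.to_subgroup (frattini U)).exists_card_eq
            rw [hj]; exact Nat.Coprime.pow_right _ hyp
          · intro a ha k hk
            have haT : a ∈ T := ((Subgroup.zpowers_le).mpr hyT) ha
            have hap : (orderOf a).Coprime p :=
              Nat.Coprime.coprime_dvd_left (orderOf_dvd_of_mem_zpowers ha) hyp
            have hmemU : a * k * a⁻¹ * k⁻¹ ∈ U :=
              U.mul_mem (hUnorm.conj_mem k hk a) (U.inv_mem hk)
            refine ⟨⟨a * k * a⁻¹ * k⁻¹, hmemU⟩, ?_, rfl⟩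
            rw [SetLike.mem_coe, mem_frattini_iff]
            intro Y hY
            have hYi := coatom_index_of_isPGroup hU Y hY
            have hYc : Nat.card Y = p ^ d := by
              have h1 := Subgroup.card_mul_index Y
              rw [hYi, hFtop, pow_succ] at h1
              exact Nat.eq_of_mul_eq_mul_right hp.pos h1
            have hMc : Nat.card (Y.map U.subtype) = p ^ d := by
              rw [← hYc]
              exact Nat.card_congr (Y.equivMapOfInjective U.subtype U.subtype_injective).toEquiv.symm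
            have hMn := hfam (Y.map U.subtype) (Subgroup.map_subtype_le _) (Or.inl hMc)
            have hidx : (Y.map U.subtype).relIndex U = p := by
              rw [Subgroup.relIndex, Subgroup.subgroupOf,
                Subgroup.comap_map_eq_self_of_injective (Subgroup.subtype_injective _), hYi]
            have h6 := hs a haT hap _ U hMn hUnorm (Subgroup.map_subtype_le _) hidx k hk
            obtain ⟨w, hw, e2⟩ := h6
            have : w = ⟨a * k * a⁻¹ * k⁻¹, hmemU⟩ := Subtype.ext e2
            rwa [this] at hw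
        · have hFlt : Nat.card F < Nat.card U := by
            have : Nat.card F ≤ Nat.card U := Subgroup.card_le_of_le hFU
            omega
          by_cases hyF : F.Normal
          · exact ih (Nat.card F) (hUn ▸ hFlt) F rfl (hU.to_le hFU) hyF
              (by rw [hFc]; exact Nat.pow_lt_pow_right hp.one_lt (Nat.lt_succ_self d))
              (fun E' hE' hc => hfam E' (hE'.trans hFU) hc) x (hEF hxE')
          · have huniq : ∀ E' : Subgroup G, E' ≤ F → Nat.card E' = p ^ d → E' = E := by
              intro E' hE'F hE'c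
              by_contra hne
              apply hyF
              have hsup : E ⊔ E' = F := by
                have hle : E ⊔ E' ≤ F := sup_le hEF hE'F
                have hlt : E < E ⊔ E' := by
                  refine lt_of_le_of_ne le_sup_left ?_
                  intro he
                  have h1 : E' ≤ E := he ▸ le_sup_right
                  exact hne (Subgroup.eq_of_le_of_card_ge h1 (by rw [hEc, hE'c]))
                have hc1 := card_lt_card_of_lt hlt
                obtain ⟨j, hj⟩ := ((hU.to_le hFU).to_le hle).exists_card_eq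
                rw [hEc, hj] at hc1
                have hdj : d < j := (Nat.pow_lt_pow_iff_right hp.one_lt).mp hc1
                apply Subgroup.eq_of_le_of_card_ge hle
                rw [hFc, hj]
                exact Nat.pow_le_pow_right hp.pos hdj
              rw [← hsup]
              have hyE' := hfam E' (hE'F.trans hFU) (Or.inl hE'c)
              exact Subgroup.sup_normal E E'
            have hEltF : E < F := by
              refine lt_of_le_of_ne hEF ?_
              intro he
              have h1 : Nat.card E = Nat.card F := by rw [he]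
              rw [hEc, hFc] at h1
              have := Nat.pow_lt_pow_right hp.one_lt (by omega : d < d + 1)
              omega
            obtain ⟨f, hfF, hfE⟩ := SetLike.exists_of_lt hEltF
            have hFz : Subgroup.zpowers f = F := by
              by_contra hne
              have hle : Subgroup.zpowers f ≤ F := (Subgroup.zpowers_le).mpr hfF
              have hlt : Subgroup.zpowers f < F := lt_of_le_of_ne hle hne
              have hc1 := card_lt_card_of_lt hlt
              obtain ⟨j, hj⟩ := ((hU.to_le hFU).to_le hle).exists_card_eq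
              rw [hFc, hj] at hc1
              have hjd : j < d + 1 := (Nat.pow_lt_pow_iff_right hp.one_lt).mp hc1
              obtain ⟨E', h1, h2, h3⟩ := exists_between (hU.to_le hFU) hle (m := d)
                (by rw [hj]; exact Nat.pow_le_pow_right hp.pos (by omega))
                (by rw [hFc]; exact Nat.pow_le_pow_right hp.pos (Nat.le_succ d))
              rw [huniq E' h2 h3] at h1
              exact hfE (h1 (Subgroup.mem_zpowers f))
            have hcycE : IsCyclic E := by
              have hle : E ≤ Subgroup.zpowers f := hFz ▸ hEF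
              exact Subgroup.isCyclic_of_le hle
            exact hcen_of_cyc E hcycE hEU hyE hxE'
      · rw [not_le] at hsmall
        have hdvd := orderOf_dvd_of_pow_eq_one hxe
        split_ifs at hdvd with hp2
        · have h4 : orderOf x ∣ 2 ^ 2 := by simpa using hdvd
          obtain ⟨k, hk, hk2⟩ := (Nat.dvd_prime_pow Nat.prime_two).1 h4
          have hpd : 2 ≤ p ^ d := by
            calc 2 = p ^ 1 := by rw [hp2]
              _ ≤ p ^ d := Nat.pow_le_pow_right hp.pos hd
          have hk2' : k = 2 := by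
            interval_cases k
            · rw [pow_zero] at hk2; omega
            · rw [pow_one] at hk2; omega
            · rfl
          rw [hk2'] at hk2
          have hpd2 : p ^ d = 2 := by
            by_contra hne
            have hd2 : 2 ≤ d := by
              by_contra hlt
              have : d = 1 := by omega
              rw [this, pow_one] at hne
              exact hne hp2
            have : p ^ 2 ≤ p ^ d := Nat.pow_le_pow_right hp.pos hd2
            rw [hp2] at this hsmall
            omega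
          have hc4 : Nat.card (Subgroup.zpowers x) = 4 := by
            rw [Nat.card_zpowers, hk2]; norm_num
          have hyE := hfam (Subgroup.zpowers x) ((Subgroup.zpowers_le).mpr hxU) (Or.inr ⟨hpd2, hc4⟩)
          exact hcen_of_cyc _ inferInstance ((Subgroup.zpowers_le).mpr hxU) hyE
            (Subgroup.mem_zpowers x)
        · exfalso
          have h1 := Nat.le_of_dvd hp.pos hdvd
          have h2 : p ^ 1 ≤ p ^ d := Nat.pow_le_pow_right hp.pos hd
          rw [pow_one] at h2
          omega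
    let α : MulAut U := U.normalizerMonoidHom ⟨y, hyU⟩
    have hαapp : ∀ x : U, ((α x : U) : G) = y * x * y⁻¹ := fun x => rfl
    have hα : (orderOf α).Coprime p := by
      have h1 : orderOf α ∣ orderOf y := by
        have := orderOf_map_dvd U.normalizerMonoidHom (⟨y, hyU⟩ : Subgroup.normalizer (U : Set G))
        rwa [Subgroup.orderOf_mk] at this
      exact Nat.Coprime.coprime_dvd_left h1 hyp
    obtain ⟨D, hD1, hD2, hD3⟩ := Cfsg.Agent.Lib.Helper22.exists_small_exponent hU α hα
    have hα1 : α = 1 := by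
      apply hD3
      intro x hx
      apply Subtype.ext
      rw [hαapp]
      apply key _ x.2
      have := congrArg Subtype.val (hD2 x hx)
      rwa [Subgroup.coe_pow] at this
    intro x hx
    have h3 : ((α ⟨x, hx⟩ : U) : G) = x := by rw [hα1]; rfl
    rwa [hαapp] at h3

/-- Lemma M -/
theorem chain_of_fam {Γ : Type u} [Group Γ] [Finite Γ] {p : ℕ} [Fact p.Prime] (Q : Subgroup Γ)
    (hQn : Q.Normal) (hQ : IsPGroup p Q) (d : ℕ) (hd : 1 ≤ d) (hdQ : p ^ d < Nat.card Q)
    (hfam : ∀ X : Subgroup Γ, X ≤ Q → (Nat.card X = p ^ d ∨ (p ^ d = 2 ∧ Nat.card X = 4)) →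
      X.Normal) : CycChain ⊥ Q := by
  have hp : p.Prime := Fact.out
  apply chain_of_T (p := p) _ Γ Q (TT (p - 1) Γ) rfl hQn inferInstance hQ (comm_mem_TT _)
    (pow_mem_TT _)
  intro t ht
  obtain ⟨k, hk⟩ := Cfsg.Agent.Lib.Helper17.exists_pow_p_pow_coprime (p := p) t
  refine ⟨k, ?_⟩
  have hmem : t ^ p ^ k ∈ TT (p - 1) Γ := Subgroup.pow_mem _ ht _
  have := centralizes_of_fam' d hd (TT (p - 1) Γ)
    (by
      intro y hy hyp E hEn hEc hEp x hx
      have := TT_centralizes_cyclic (MonoidHom.id Γ) E hEc hEp y hy hyp x hx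
      simpa using this)
    (by
      intro y hy hyp A B hAn hBn hAB hidx b hb
      let π := QuotientGroup.mk' A
      have hsurj : Function.Surjective π := QuotientGroup.mk'_surjective A
      have hcard : Nat.card (B.map π) = p := by
        rw [← Subgroup.relIndex_bot_left, ← Subgroup.relIndex_comap, MonoidHom.comap_bot,
          QuotientGroup.ker_mk', hidx]
      have hn : (B.map π).Normal := hBn.map π hsurj
      have := TT_centralizes_cyclic π (B.map π) (isCyclic_of_prime_card hcard)
        (IsPGroup.of_card (n := 1) (by rw [hcard, pow_one])) y hy hyp (π b) ⟨b, hb, rfl⟩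
      have h2 : π (y * b * y⁻¹ * b⁻¹) = 1 := by
        rw [map_mul, map_mul, map_mul, map_inv, map_inv, this, mul_inv_cancel]
      exact (QuotientGroup.eq_one_iff _).mp h2)
    (t ^ p ^ k) hmem hk _ Q rfl hQ hQn hdQ hfam
  rw [Subgroup.mem_centralizer_iff]
  intro x hx
  have h1 := this x hx
  calc x * t ^ p ^ k = (t ^ p ^ k * x * (t ^ p ^ k)⁻¹) * t ^ p ^ k := by rw [h1]
    _ = t ^ p ^ k * x := by group

end Cfsg.Agent.Lib.Helper23.HSub2
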