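import Mathlib
import Cfsg.Prelude.Def_CaseTheorems
import Cfsg.Agent.Lib.Helper5.Card

set_option autoImplicit false

namespace Cfsg.Agent.Lib.Helper23

/-- Using a bound for the sectional rank: an elementary abelian section `X / D`. -/
theorem relIndex_le_of_sectionalPRankLE {G : Type*} [Group G] {p k : ℕ}
    (hr : Cfsg.SectionalPRankLE p k G)
    (D X : Subgroup G) (hDX : D ≤ X) (hn : ∀ x ∈ X, ∀ d ∈ D, x * d * x⁻¹ ∈ D)
    (hp : ∀ x ∈ X, x ^ p ∈ D) (hc : ∀ x ∈ X, ∀ y ∈ X, x * y * x⁻¹ * y⁻¹ ∈ D) :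
    D.relIndex X ≤ p ^ k := by
  have hN : (D.subgroupOf X).Normal :=
    (Subgroup.normal_subgroupOf_iff hDX).2 (fun h k hh hk => hn k hk h hh)
  have hq2 : ∀ a : X ⧸ D.subgroupOf X, a ^ p = 1 := by
    intro a
    obtain ⟨x, rfl⟩ := QuotientGroup.mk_surjective a
    rw [← QuotientGroup.mk_pow, QuotientGroup.eq_one_iff, Subgroup.mem_subgroupOf]
    exact hp x x.2
  have hqc : ∀ a b : X ⧸ D.subgroupOf X, a * b = b * a := by
    intro a b
    obtain ⟨x, rfl⟩ := QuotientGroup.mk_surjective a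
    obtain ⟨y, rfl⟩ := QuotientGroup.mk_surjective b
    rw [← QuotientGroup.mk_mul, ← QuotientGroup.mk_mul, QuotientGroup.eq, Subgroup.mem_subgroupOf]
    have h1 := hc (y : G)⁻¹ (X.inv_mem y.2) (x : G)⁻¹ (X.inv_mem x.2)
    have e : (((x * y)⁻¹ * (y * x) : X) : G) = (y : G)⁻¹ * (x : G)⁻¹ * ((y : G)⁻¹)⁻¹ * ((x : G)⁻¹)⁻¹ := by
      push_cast
      group
    rw [e]
    exact h1
  have hcard := hr X (D.subgroupOf X) ⊤ ⟨⟨fun a b => Subtype.ext (hqc a b)⟩⟩ (fun a _ => hq2 a)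
  rw [Subgroup.card_top] at hcard
  exact hcard

/-- Proving a bound for the sectional rank. -/
theorem sectionalPRankLE_of_forall {G : Type*} [Group G] {p k : ℕ}
    (h : ∀ D X : Subgroup G, D ≤ X → (∀ x ∈ X, ∀ d ∈ D, x * d * x⁻¹ ∈ D) → (∀ x ∈ X, x ^ p ∈ D) →
      (∀ x ∈ X, ∀ y ∈ X, x * y * x⁻¹ * y⁻¹ ∈ D) → D.relIndex X ≤ p ^ k) :
    Cfsg.SectionalPRankLE p k G := by
  intro H N hN A hA hAp
  have hNX : N ≤ A.comap (QuotientGroup.mk' N) := by
    intro n hn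
    rw [Subgroup.mem_comap]
    have : QuotientGroup.mk' N n = 1 := (QuotientGroup.eq_one_iff n).2 hn
    rw [this]
    exact one_mem A
  have key := h (N.map H.subtype) ((A.comap (QuotientGroup.mk' N)).map H.subtype)
    (Subgroup.map_mono hNX) ?_ ?_ ?_
  · rw [Subgroup.relIndex_map_map_of_injective _ _ H.subtype_injective] at key
    have e2 : ((⊥ : Subgroup (H ⧸ N)).comap (QuotientGroup.mk' N)).relIndex
        (A.comap (QuotientGroup.mk' N)) = Nat.card A := by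
      rw [Subgroup.relIndex_comap, Subgroup.relIndex_bot_left,
        Subgroup.map_comap_eq_self_of_surjective (QuotientGroup.mk'_surjective N)]
    rw [MonoidHom.comap_bot, QuotientGroup.ker_mk'] at e2
    rwa [e2] at key
  · rintro _ ⟨x, _, rfl⟩ _ ⟨d, hd, rfl⟩
    exact ⟨x * d * x⁻¹, hN.conj_mem d hd x, by simp⟩
  · rintro _ ⟨x, hx, rfl⟩
    refine ⟨x ^ p, ?_, by simp⟩
    rw [SetLike.mem_coe, ← QuotientGroup.eq_one_iff, QuotientGroup.mk_pow]
    exact hAp _ hx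
  · rintro _ ⟨x, hx, rfl⟩ _ ⟨y, hy, rfl⟩
    refine ⟨x * y * x⁻¹ * y⁻¹, ?_, by simp⟩
    rw [SetLike.mem_coe, ← QuotientGroup.eq_one_iff]
    have hxy : (x : H ⧸ N) * (y : H ⧸ N) = (y : H ⧸ N) * (x : H ⧸ N) :=
      congrArg Subtype.val (hA.is_comm.comm ⟨(x : H ⧸ N), hx⟩ ⟨(y : H ⧸ N), hy⟩)
    simp only [QuotientGroup.mk_mul, QuotientGroup.mk_inv]
    rw [hxy]
    group

theorem sectionalPRankLE_of_injective {G K : Type*} [Group G] [Group K] {p k : ℕ}
    (f : K →* G) (hf : Function.Injective f) (hr : Cfsg.SectionalPRankLE p k G) :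
    Cfsg.SectionalPRankLE p k K := by
  apply sectionalPRankLE_of_forall
  intro D X hDX hn hp hc
  have key := relIndex_le_of_sectionalPRankLE hr (D.map f) (X.map f)
    (Subgroup.map_mono hDX) ?_ ?_ ?_
  · rwa [Subgroup.relIndex_map_map_of_injective _ _ hf] at key
  · rintro _ ⟨x, hx, rfl⟩ _ ⟨d, hd, rfl⟩
    exact ⟨x * d * x⁻¹, hn x hx d hd, by simp⟩
  · rintro _ ⟨x, hx, rfl⟩
    exact ⟨x ^ p, hp x hx, by simp⟩
  · rintro _ ⟨x, hx, rfl⟩ _ ⟨y, hy, rfl⟩
    exact ⟨_, hc x hx y hy, by simp⟩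

theorem sectionalPRankLE_subgroup {G : Type*} [Group G] {p k : ℕ}
    (hr : Cfsg.SectionalPRankLE p k G) (K : Subgroup G) : Cfsg.SectionalPRankLE p k K :=
  sectionalPRankLE_of_injective K.subtype K.subtype_injective hr

theorem sectionalPRankLE_of_prod_self {P : Type*} [Group P] [Finite P] {p k : ℕ}
    (hr : Cfsg.SectionalPRankLE p (k + k) (P × P)) : Cfsg.SectionalPRankLE p k P := by
  apply sectionalPRankLE_of_forall
  intro D X hDX hn hp hc
  have hle : D.prod D ≤ X.prod X := Subgroup.prod_mono hDX hDX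
  have key := relIndex_le_of_sectionalPRankLE hr (D.prod D) (X.prod X) hle ?_ ?_ ?_
  · have e1 := Cfsg.Agent.Lib.Helper5.card_mul_relIndex hle
    have e2 := Cfsg.Agent.Lib.Helper5.card_mul_relIndex hDX
    rw [Nat.card_congr (Subgroup.prodEquiv D D).toEquiv,
      Nat.card_congr (Subgroup.prodEquiv X X).toEquiv, Nat.card_prod, Nat.card_prod, ← e2] at e1
    have hpos : 0 < Nat.card D * Nat.card D := Nat.mul_pos Nat.card_pos Nat.card_pos
    have e3 : (D.prod D).relIndex (X.prod X) = D.relIndex X * D.relIndex X := by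
      apply Nat.eq_of_mul_eq_mul_left hpos
      rw [e1]; ring
    rw [e3, pow_add] at key
    exact Nat.mul_self_le_mul_self_iff.1 key
  · rintro x hx d hd
    exact Subgroup.mem_prod.2 ⟨hn x.1 hx.1 d.1 hd.1, hn x.2 hx.2 d.2 hd.2⟩
  · rintro x hx
    exact Subgroup.mem_prod.2 ⟨hp x.1 hx.1, hp x.2 hx.2⟩
  · rintro x hx y hy
    exact Subgroup.mem_prod.2 ⟨hc x.1 hx.1 y.1 hy.1, hc x.2 hx.2 y.2 hy.2⟩

end Cfsg.Agent.Lib.Helper23
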