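import Cfsg.Agent.Lib.Helper23.SylNum2
import Cfsg.Agent.S0025

set_option autoImplicit false

namespace Cfsg.Agent.Lib.Helper23

open Cfsg.Agent.Lib.Helper17

variable {G : Type*} [Group G]

theorem IsSyl_card [Finite G] {q : ℕ} [Fact q.Prime] {T H : Subgroup G} (hT : IsSyl q T H) :
    Nat.card T = q ^ (Nat.card H).factorization q := by
  obtain ⟨S, rfl⟩ := hT
  rw [Subgroup.card_map_of_injective H.subtype_injective]
  exact S.card_eq_multiplicity

theorem card_inf_mul_relIndex' (S H : Subgroup G) :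
    Nat.card (S ⊓ H : Subgroup G) * S.relIndex H = Nat.card H := by
  have h1 : Nat.card (S.subgroupOf H) = Nat.card (S ⊓ H : Subgroup G) := by
    rw [← Subgroup.inf_subgroupOf_right]
    exact Nat.card_congr (Subgroup.subgroupOfEquivOfLe (inf_le_right : S ⊓ H ≤ H)).toEquiv
  rw [← h1]
  exact Subgroup.card_mul_index (S.subgroupOf H)

/-- `P` a Sylow `p`-subgroup normalizing the subgroup `Q`: `|Q : N_Q(P)| ≡ 1 mod p`. -/
theorem relIndex_normalizer_modEq_one [Finite G] {p : ℕ} [Fact p.Prime] (P : Sylow p G)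
    (Q : Subgroup G) (hPQ : (P : Subgroup G) ≤ Subgroup.normalizer (Q : Set G)) :
    (Subgroup.normalizer ((P : Subgroup G) : Set G)).relIndex Q ≡ 1 [MOD p] := by
  set M := Subgroup.normalizer ((P : Subgroup G) : Set G) with hM
  set Y := (P : Subgroup G) ⊔ Q with hY
  have hsyl : IsSyl p (P : Subgroup G) Y := (isSyl_top P).of_le le_sup_left le_top
  have h1 := card_sylow_eq_relIndex hsyl
  have h2 := card_sylow_modEq_one p Y
  rw [h1] at h2
  have hYQ : Y ≤ Subgroup.normalizer (Q : Set G) := sup_le hPQ Subgroup.le_normalizer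
  have h3 := relIndex_eq_relIndex_sup_of_le_normalizer (M ⊓ Y) Q (inf_le_right.trans hYQ)
  have h4 : (M ⊓ Y) ⊔ Q = Y := by
    apply le_antisymm (sup_le inf_le_right le_sup_right)
    exact sup_le ((le_inf Subgroup.le_normalizer le_sup_left).trans le_sup_left) le_sup_right
  rw [h4, Subgroup.inf_relIndex_right] at h3
  have h5 : (M ⊓ Y).relIndex Q = M.relIndex Q := by
    rw [← Subgroup.inf_relIndex_right (M ⊓ Y) Q, ← Subgroup.inf_relIndex_right M Q, inf_assoc,
      inf_eq_right.2 (le_sup_right : Q ≤ Y)]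
  rw [← h5, h3]
  exact h2

/-- Coprime case of M. Hall's theorem: every prime-power part of `|K : N_K(P)|` is `≡ 1 mod p`. -/
theorem part_relIndex_modEq_one [Finite G] {p : ℕ} [hp : Fact p.Prime] (P : Sylow p G)
    (K : Subgroup G) [K.Normal] (hK : ¬ p ∣ Nat.card K) (q : ℕ) [Fact q.Prime] :
    q ^ ((Subgroup.normalizer ((P : Subgroup G) : Set G)).relIndex K).factorization q
      ≡ 1 [MOD p] := by
  set M := Subgroup.normalizer ((P : Subgroup G) : Set G) with hM
  set C := M ⊓ K with hC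
  have hcop : (Nat.card (P : Subgroup G)).Coprime (Nat.card K) := by
    obtain ⟨k, hk⟩ := P.2.exists_card_eq
    rw [hk]
    exact Nat.Coprime.pow_left k ((Nat.Prime.coprime_iff_not_dvd hp.out).2 hK)
  have hPK : (P : Subgroup G) ⊓ K = ⊥ := (Subgroup.disjoint_of_coprime_natCard hcop).eq_bot
  have hCcent : C ≤ Subgroup.centralizer ((P : Subgroup G) : Set G) := by
    intro c hc
    rw [Subgroup.mem_centralizer_iff]
    intro x hx
    have h1 : c * x * c⁻¹ * x⁻¹ ∈ (P : Subgroup G) ⊓ K := by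
      refine Subgroup.mem_inf.2 ⟨?_, ?_⟩
      · exact mul_mem ((Subgroup.mem_normalizer_iff.1 hc.1 x).1 hx) (inv_mem hx)
      · have e : c * x * c⁻¹ * x⁻¹ = c * (x * c⁻¹ * x⁻¹) := by group
        rw [e]
        exact mul_mem hc.2 ((inferInstance : K.Normal).conj_mem _ (inv_mem hc.2) x)
    rw [hPK, Subgroup.mem_bot] at h1
    calc x * c = (c * x * c⁻¹ * x⁻¹)⁻¹ * (c * x) := by group
      _ = c * x := by rw [h1]; group
  obtain ⟨Q0, hQ0⟩ := exists_isSyl q C
  have hPQ0 : (P : Subgroup G) ≤ Subgroup.normalizer (Q0 : Set G) := by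
    refine le_trans ?_ (centralizer_le_normalizer' Q0)
    intro x hx
    rw [Subgroup.mem_centralizer_iff]
    intro y hy
    exact (Subgroup.mem_centralizer_iff.1 (hCcent (hQ0.le hy)) x hx).symm
  have hsolv : Group.IsSolvable (P : Subgroup G) := by
    have := P.2.isNilpotent
    infer_instance
  obtain ⟨S, hS1, hS2⟩ := Cfsg.Agent.S0025.result (P : Subgroup G) K (le_normalizer_of_normal' K _)
    hcop (Or.inl hsolv) q Q0 (hQ0.le.trans inf_le_right) hQ0.isPGroup hPQ0
  set Q := (S : Subgroup K).map K.subtype with hQ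
  have hQsyl : IsSyl q Q K := ⟨S, rfl⟩
  have hQC : M ⊓ Q = Q0 := by
    have h1 : M ⊓ Q ≤ C := inf_le_inf_left _ hQsyl.le
    have h2 : IsPGroup q (M ⊓ Q : Subgroup G) := hQsyl.isPGroup.to_le inf_le_right
    exact hQ0.eq_of_le h1 h2 (le_inf (hQ0.le.trans inf_le_left) hS1)
  have e1 : Nat.card C * M.relIndex K = Nat.card K := card_inf_mul_relIndex' M K
  have e2 : Nat.card Q0 * M.relIndex Q = Nat.card Q := by
    rw [← hQC]; exact card_inf_mul_relIndex' M Q
  have hpos : M.relIndex K ≠ 0 := by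
    intro h
    rw [h, mul_zero] at e1
    exact Nat.card_pos.ne e1
  have e3 : (Nat.card C).factorization q + (M.relIndex K).factorization q =
      (Nat.card K).factorization q := by
    rw [← e1, Nat.factorization_mul Nat.card_pos.ne' hpos]; rfl
  rw [IsSyl_card hQ0, IsSyl_card hQsyl, ← e3, pow_add] at e2
  have e4 : M.relIndex Q = q ^ (M.relIndex K).factorization q :=
    Nat.eq_of_mul_eq_mul_left (pow_pos (Fact.out : q.Prime).pos _) e2
  rw [← e4]
  exact relIndex_normalizer_modEq_one P Q hS2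

end Cfsg.Agent.Lib.Helper23
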